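import Mathlib

/-! Graph lemmas for Babai's bound on the minimal degree of a primitive group. -/

set_option autoImplicit false
set_option linter.unusedSectionVars false

namespace Cfsg.Agent.H18.Babai

open Finset MulAction

section prim
variable {G Ω : Type*} [Group G] [MulAction G Ω]

theorem prim_equiv (hG : IsPreprimitive G Ω) (E : Ω → Ω → Prop) (hE : Equivalence E)
    (hinv : ∀ (h : G) x y, E x y → E (h • x) (h • y)) {a b : Ω} (hab : a ≠ b) (h : E a b)
    (x y : Ω) : E x y := by
  have hB : IsBlock G {z | E a z} := by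
    rw [isBlock_iff_smul_eq_of_nonempty]
    rintro g ⟨_, ⟨z, hz, rfl⟩, hz'⟩
    have e : E (g • a) a := hE.trans (hinv g _ _ hz) (hE.symm hz')
    ext w
    constructor
    · rintro ⟨u, hu, rfl⟩
      exact hE.trans (hE.symm e) (hinv g _ _ hu)
    · intro hw
      refine ⟨g⁻¹ • w, ?_, smul_inv_smul g w⟩
      have := hinv g⁻¹ _ _ (hE.trans e hw)
      rwa [inv_smul_smul] at this
  rcases hG.isTrivialBlock_of_isBlock hB with h1 | h1
  · exact (hab (h1 (hE.refl a) h)).elim
  · exact hE.trans (hE.symm (show x ∈ {z | E a z} from h1 ▸ Set.mem_univ x))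
      (show y ∈ {z | E a z} from h1 ▸ Set.mem_univ y)

end prim

variable {Ω : Type*} [Fintype Ω] [DecidableEq Ω] {X : SimpleGraph Ω} [DecidableRel X.Adj]

theorem exists_pred (hX : X.Connected) {z x : Ω} (h : x ≠ z) :
    ∃ y, X.Adj x y ∧ X.dist z y + 1 = X.dist z x := by
  obtain ⟨p, hp⟩ := hX.exists_walk_length_eq_dist x z
  cases p with
  | nil => exact (h rfl).elim
  | cons a q =>
    rename_i y
    refine ⟨y, a, ?_⟩
    have h1 := SimpleGraph.dist_le q
    have h2 := hX.dist_triangle (u := x) (v := y) (w := z)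
    rw [SimpleGraph.dist_eq_one_iff_adj.2 a] at h2
    rw [SimpleGraph.Walk.length_cons] at hp
    rw [SimpleGraph.dist_comm (u := z) (v := y), SimpleGraph.dist_comm (u := z) (v := x)]
    omega

theorem exists_dist (hX : X.Connected) (z : Ω) :
    ∀ (d : ℕ) (s : ℕ) (x : Ω), X.dist z x = s + d → ∃ y, X.dist z y = s
  | 0, _, x, h => ⟨x, h⟩
  | d + 1, s, x, h => by
    have : x ≠ z := by rintro rfl; simp at h
    obtain ⟨y, -, hy⟩ := exists_pred hX this
    exact exists_dist hX z d s y (by omega)

/-- balls -/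
noncomputable def ball (X : SimpleGraph Ω) (z : Ω) (t : ℕ) : Finset Ω :=
  univ.filter fun y => X.dist z y ≤ t

theorem ball_growth (hX : X.Connected) {k : ℕ} (hk : X.IsRegularOfDegree k) (z : Ω) :
    ∀ (j : ℕ) (x : Ω), 3 * j ≤ X.dist z x → (j + 1) * (k + 1) ≤ (ball X z (3 * j + 1)).card := by
  have nb : ∀ y, (insert y (X.neighborFinset y)).card = k + 1 := fun y => by
    rw [card_insert_of_notMem (by simp), SimpleGraph.card_neighborFinset_eq_degree, hk.degree_eq]
  have d1 : ∀ y u, u ∈ insert y (X.neighborFinset y) → X.dist y u ≤ 1 := fun y u hu => by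
    rcases mem_insert.1 hu with rfl | hu
    · simp
    · rw [SimpleGraph.dist_eq_one_iff_adj.2 ((X.mem_neighborFinset y u).1 hu)]
  intro j
  induction j with
  | zero =>
    intro x _
    rw [zero_add, one_mul, ← nb z]
    exact card_le_card fun u hu => mem_filter.2 ⟨mem_univ _, d1 z u hu⟩
  | succ j ih =>
    intro x hx
    obtain ⟨y, hy⟩ := exists_dist hX z (X.dist z x - 3 * (j + 1)) (3 * (j + 1)) x (by omega)
    have h1 := ih x (by omega)
    have h2 : (ball X z (3 * j + 1) ∪ insert y (X.neighborFinset y)).card ≤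
        (ball X z (3 * (j + 1) + 1)).card := card_le_card fun u hu => by
      refine mem_filter.2 ⟨mem_univ _, ?_⟩
      rcases mem_union.1 hu with hu | hu
      · have := (mem_filter.1 hu).2; omega
      · have := d1 y u hu
        have := hX.dist_triangle (u := z) (v := y) (w := u)
        omega
    rw [card_union_of_disjoint (disjoint_left.2 fun u h1 h2 => by
      have := (mem_filter.1 h1).2
      have := d1 y u h2
      have := hX.dist_triangle (u := z) (v := u) (w := y)
      rw [SimpleGraph.dist_comm (u := u)] at this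
      omega), nb] at h2
    nlinarith

/-- at least `2 (n - 1)` ordered edges join different layers -/
theorem layer_edges (hX : X.Connected) (z : Ω) : 2 * (Fintype.card Ω - 1) ≤
    ((univ : Finset (Ω × Ω)).filter fun p => X.Adj p.1 p.2 ∧ X.dist z p.1 ≠ X.dist z p.2).card := by
  have hc : (univ.erase z).card = Fintype.card Ω - 1 := by
    rw [card_erase_of_mem (mem_univ z), card_univ]
  let A := (univ : Finset (Ω × Ω)).filter fun p => X.Adj p.1 p.2 ∧ X.dist z p.2 < X.dist z p.1
  let B := (univ : Finset (Ω × Ω)).filter fun p => X.Adj p.1 p.2 ∧ X.dist z p.1 < X.dist z p.2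
  have hA : (univ.erase z).card ≤ A.card := by
    refine le_trans (card_le_card fun x hx => ?_) (card_image_le (f := Prod.fst))
    obtain ⟨y, h1, h2⟩ := exists_pred hX (mem_erase.1 hx).1
    exact mem_image.2 ⟨(x, y), mem_filter.2 ⟨mem_univ _, h1, by simp only; omega⟩, rfl⟩
  have hB : (univ.erase z).card ≤ B.card := by
    refine le_trans (card_le_card fun x hx => ?_) (card_image_le (f := Prod.snd))
    obtain ⟨y, h1, h2⟩ := exists_pred hX (mem_erase.1 hx).1
    exact mem_image.2 ⟨(y, x), mem_filter.2 ⟨mem_univ _, h1.symm, by simp only; omega⟩, rfl⟩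
  have h := card_le_card (s := A ∪ B) (t := (univ : Finset (Ω × Ω)).filter
    fun p => X.Adj p.1 p.2 ∧ X.dist z p.1 ≠ X.dist z p.2) fun p hp => by
      refine mem_filter.2 ⟨mem_univ _, ?_⟩
      rcases mem_union.1 hp with hp | hp <;> obtain ⟨-, h1, h2⟩ := mem_filter.1 hp <;>
        exact ⟨h1, by omega⟩
  rw [card_union_of_disjoint (disjoint_left.2 fun p h1 h2 => by
    have := (mem_filter.1 h1).2.2
    have := (mem_filter.1 h2).2.2
    omega)] at h
  omega

theorem dist_smul {G : Type*} [Group G] [MulAction G Ω] (hX : X.Connected)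
    (hinv : ∀ (h : G) x y, X.Adj x y → X.Adj (h • x) (h • y)) (h : G) (x y : Ω) :
    X.dist (h • x) (h • y) = X.dist x y := by
  have key : ∀ (h : G) x y, X.dist (h • x) (h • y) ≤ X.dist x y := fun h x y => by
    obtain ⟨p, hp⟩ := hX.exists_walk_length_eq_dist x y
    let f : X →g X := ⟨fun v => h • v, fun a => hinv h _ _ a⟩
    have := SimpleGraph.dist_le (p.map f)
    rwa [SimpleGraph.Walk.length_map, hp] at this
  refine le_antisymm (key h x y) ?_
  have := key h⁻¹ (h • x) (h • y)
  rwa [inv_smul_smul, inv_smul_smul] at this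

end Cfsg.Agent.H18.Babai
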