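import Cfsg.Agent.H18.Babai1
import Cfsg.Agent.H78.PermSmall

/-! Babai's bound on the minimal degree of a primitive group. -/

set_option autoImplicit false
set_option linter.unusedSectionVars false

namespace Cfsg.Agent.H18.Babai

open Finset MulAction

variable {G Ω : Type*} [Group G] [MulAction G Ω] [Fintype Ω] [DecidableEq Ω]

/-- `x` and `y` lie in the same orbit of the stabiliser of `z` -/
def Same (G : Type*) [Group G] [MulAction G Ω] (z x y : Ω) : Prop := ∃ h : G, h • z = z ∧ h • x = y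

theorem Same.refl (z x : Ω) : Same G z x x := ⟨1, one_smul _ _, one_smul _ _⟩

theorem Same.symm {z x y : Ω} (h : Same G z x y) : Same G z y x := by
  obtain ⟨h, h1, h2⟩ := h
  exact ⟨h⁻¹, inv_smul_eq_iff.2 h1.symm, inv_smul_eq_iff.2 h2.symm⟩

theorem Same.trans {z x y w : Ω} (h : Same G z x y) (h' : Same G z y w) : Same G z x w := by
  obtain ⟨h, h1, h2⟩ := h
  obtain ⟨h', h1', h2'⟩ := h'
  exact ⟨h' * h, by rw [mul_smul, h1, h1'], by rw [mul_smul, h2, h2']⟩

open Classical in
/-- suborbits -/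
noncomputable def orb (G : Type*) [Group G] [MulAction G Ω] (z x : Ω) : Finset Ω :=
  univ.filter fun y => Same G z x y

open Classical in
/-- the points distinguishing `x` and `y` -/
noncomputable def psi (G : Type*) [Group G] [MulAction G Ω] (x y : Ω) : Finset Ω :=
  univ.filter fun z => ¬ Same G z x y

theorem mem_orb {z x y : Ω} : y ∈ orb G z x ↔ Same G z x y := by simp [orb]
theorem mem_psi {z x y : Ω} : z ∈ psi G x y ↔ ¬ Same G z x y := by simp [psi]

theorem exists_psi {K M : ℕ} (h2 : 2 ≤ Fintype.card Ω) (hK : ∀ z x : Ω, (orb G z x).card ≤ K)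
    (hM : ∀ x y : Ω, (psi G x y).card ≤ M) : Fintype.card Ω + 1 ≤ M + K := by
  classical
  set n := Fintype.card Ω with hn
  have h1 : ∀ z : Ω, ∑ x, (orb G z x).card ≤ 1 + (n - 1) * K := fun z => by
    rw [← add_sum_erase _ _ (mem_univ z)]
    refine add_le_add (card_le_one.2 fun a ha b hb => ?_) ?_
    · obtain ⟨h, h1, h2⟩ := mem_orb.1 ha
      obtain ⟨h', h1', h2'⟩ := mem_orb.1 hb
      rw [← h2, ← h2', h1, h1']
    · refine (sum_le_card_nsmul _ _ K fun x _ => hK z x).trans ?_
      rw [card_erase_of_mem (mem_univ z), card_univ, smul_eq_mul]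
  have h3 : ∀ x : Ω, ∑ y, (psi G x y).card ≤ (n - 1) * M := fun x => by
    rw [← add_sum_erase _ _ (mem_univ x), show (psi G x x).card = 0 from card_eq_zero.2
      (eq_empty_iff_forall_notMem.2 fun z hz => mem_psi.1 hz (Same.refl z x)), zero_add]
    refine (sum_le_card_nsmul _ _ M fun y _ => hM x y).trans ?_
    rw [card_erase_of_mem (mem_univ x), card_univ, smul_eq_mul]
  have h4 : ∑ z : Ω, ∑ x, (orb G z x).card + ∑ x : Ω, ∑ y, (psi G x y).card = n * (n * n) := by
    simp only [orb, psi, card_filter]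
    rw [sum_comm (γ := Ω), ← sum_add_distrib]
    have : ∀ x : Ω, (∑ z : Ω, ∑ y : Ω, if Same G z x y then 1 else 0) +
        (∑ y : Ω, ∑ z : Ω, if ¬ Same G z x y then 1 else 0) = n * n := fun x => by
      rw [sum_comm (γ := Ω), ← sum_add_distrib]
      simp only [← sum_add_distrib]
      rw [sum_congr rfl fun y _ => sum_congr rfl (g := fun _ => 1) fun z _ => by
        split_ifs <;> rfl]
      simp [hn]
    simp only [this, sum_const, card_univ, smul_eq_mul, hn]
  have h5 := sum_le_card_nsmul univ _ _ fun z (_ : z ∈ (univ : Finset Ω)) => h1 z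
  have h6 := sum_le_card_nsmul univ _ _ fun z (_ : z ∈ (univ : Finset Ω)) => h3 z
  rw [card_univ, smul_eq_mul, ← hn] at h5 h6
  obtain ⟨r, hr⟩ : ∃ r, n = r + 1 := ⟨n - 1, by omega⟩
  rw [hr] at h2 h4 h5 h6 ⊢
  rw [Nat.add_sub_cancel] at h5 h6
  have h7 : (r + 1) * ((r + 1) * (r + 1)) ≤ (r + 1) * (1 + r * K + r * M) := by linarith
  have h8 := Nat.le_of_mul_le_mul_left h7 (by omega)
  have h9 : r * (r + 2) ≤ r * (M + K) := by linarith
  have := Nat.le_of_mul_le_mul_left h9 (by omega)
  omega

/-- support -/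
noncomputable def supp (Ω : Type*) [Fintype Ω] [DecidableEq Ω] [MulAction G Ω] (g : G) :
    Finset Ω := univ.filter fun x => g • x ≠ x

theorem mem_supp {g : G} {x : Ω} : x ∈ supp Ω g ↔ g • x ≠ x := by simp [supp]

theorem two_trans [Finite G] (hG : IsPreprimitive G Ω)
    (hA : ¬ alternatingGroup Ω ≤ (toPermHom G Ω).range) {g : G} {a : Ω} (ha : g • a ≠ a)
    (ht : ∀ x y, x ≠ a → y ≠ a → Same G a x y) :
    Fintype.card Ω - 1 ≤ (supp Ω g).card * (supp Ω g).card := by
  classical
  have := Fintype.ofFinite G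
  let S : Finset G := univ.filter fun h => h • a = a
  let c : Ω → Ω → ℕ := fun x y => (S.filter fun h => h • x = y).card
  have c1 : ∀ x y y', y ≠ a → y' ≠ a → c x y ≤ c x y' := fun x y y' hy hy' => by
    obtain ⟨k, k1, k2⟩ := ht y y' hy hy'
    refine card_le_card_of_injOn (fun h => k * h) (fun h hh => ?_) fun _ _ _ _ e =>
      mul_left_cancel e
    simp only [S, coe_filter, mem_filter, mem_univ, true_and, Set.mem_ofPred_eq] at hh ⊢
    rw [mul_smul, mul_smul, hh.1, hh.2, k1, k2]
    exact ⟨rfl, rfl⟩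
  have c2 : ∀ x y, y ≠ a → (Fintype.card Ω - 1) * c x y ≤ S.card := fun x y hy => by
    rw [card_eq_sum_card_fiberwise (f := fun h : G => h • x) (t := univ) fun _ _ => mem_univ _]
    refine le_trans ?_ (sum_le_sum_of_subset (erase_subset a univ))
    have := card_nsmul_le_sum (univ.erase a) (fun y' => c x y') (c x y) fun y' hy' =>
      c1 x y y' hy (mem_erase.1 hy').1
    rwa [card_erase_of_mem (mem_univ a), card_univ, smul_eq_mul] at this
  let T := (supp Ω g).erase a
  have c3 : S ⊆ (T ×ˢ T).biUnion fun p => S.filter fun h => h • p.1 = p.2 := fun h hh => by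
    have hh' : h • a = a := (mem_filter.1 hh).2
    by_contra hc
    refine hA (H78.alt_le_of_support_inter hG ha (h := h * g * h⁻¹) (fun e => ha ?_)
      fun y h1 h2 => ?_)
    · rw [mul_smul, mul_smul, inv_smul_eq_iff.2 hh'.symm] at e
      exact MulAction.injective h (e.trans hh'.symm)
    · by_contra e
      refine hc (mem_biUnion.2 ⟨(h⁻¹ • y, y), mem_product.2 ⟨mem_erase.2 ⟨fun e' => e ?_,
        mem_supp.2 fun e' => h2 ?_⟩, mem_erase.2 ⟨e, mem_supp.2 h1⟩⟩,
        mem_filter.2 ⟨hh, smul_inv_smul h y⟩⟩)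
      · rw [inv_smul_eq_iff.1 e', hh']
      · rw [mul_smul, mul_smul, e', smul_inv_smul]
  have c4 := (card_le_card c3).trans card_biUnion_le
  have c5 : (Fintype.card Ω - 1) * S.card ≤ (T ×ˢ T).card * S.card := by
    refine (Nat.mul_le_mul_left _ c4).trans ?_
    rw [mul_sum]
    exact sum_le_card_nsmul _ _ _ fun p hp => c2 _ _ (mem_erase.1 (mem_product.1 hp).2).1
  have c6 := Nat.le_of_mul_le_mul_right c5 (card_pos.2 ⟨1, by simp [S]⟩)
  rw [card_product] at c6
  have := card_erase_le (s := supp Ω g) (a := a)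
  exact c6.trans (Nat.mul_le_mul this this)

open Classical in
/-- the orbital through `(z, x)` seen from `u` -/
noncomputable def big (G : Type*) [Group G] [MulAction G Ω] (z x u : Ω) : Finset Ω :=
  univ.filter fun v => ∃ h : G, h • z = u ∧ h • x = v

theorem mem_big {z x u v : Ω} : v ∈ big G z x u ↔ ∃ h : G, h • z = u ∧ h • x = v := by simp [big]

theorem big_smul {z x u v : Ω} (h : G) (hv : v ∈ big G z x u) : h • v ∈ big G z x (h • u) := by
  obtain ⟨k, rfl, rfl⟩ := mem_big.1 hv
  exact mem_big.2 ⟨h * k, mul_smul _ _ _, mul_smul _ _ _⟩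

theorem big_smul_iff {z x u v : Ω} (h : G) : h • v ∈ big G z x (h • u) ↔ v ∈ big G z x u :=
  ⟨fun hv => by simpa using big_smul h⁻¹ hv, big_smul h⟩

theorem card_big [IsPretransitive G Ω] (z x u : Ω) : (big G z x u).card = (orb G z x).card := by
  obtain ⟨h, rfl⟩ := exists_smul_eq G z u
  refine (card_bij (fun v _ => h • v) (fun v hv => big_smul h (mem_big.2 (mem_orb.1 hv)))
    (fun _ _ _ _ e => MulAction.injective h e) fun v hv => ⟨h⁻¹ • v, ?_, smul_inv_smul h v⟩).symm
  have := big_smul h⁻¹ hv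
  rw [inv_smul_smul] at this
  exact mem_orb.2 (mem_big.1 this)

theorem rest_bound (hG : IsPreprimitive G Ω) {z x : Ω} (hx : x ≠ z) {l : ℕ} (hl : 0 < l)
    (hn : l + (orb G z x).card + 1 = Fintype.card Ω) : (orb G z x).card ≤ l * l := by
  let T : Ω → Finset Ω := fun u => univ \ big G z x u
  have hnot : ∀ u, u ∉ big G z x u := fun u hu => by
    obtain ⟨h, h1, h2⟩ := mem_big.1 hu
    exact hx (MulAction.injective h (h2.trans h1.symm))
  have hT : ∀ u, (T u).card = l + 1 := fun u => by
    rw [card_sdiff_of_subset (subset_univ _), card_univ, card_big]; omega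
  have hS : ∀ u, ((T u).erase u).card = l := fun u => by
    rw [card_erase_of_mem (mem_sdiff.2 ⟨mem_univ _, hnot u⟩), hT]; rfl
  have mT : ∀ u v, v ∈ T u ↔ v ∉ big G z x u := fun u v => by simp [T]
  obtain ⟨w, hw, v, hv, hv'⟩ : ∃ w ∈ (T z).erase z, ∃ v ∈ T w, v ∉ T z := by
    by_contra hc
    push Not at hc
    obtain ⟨w, hw⟩ := card_pos.1 (show 0 < ((T z).erase z).card by rw [hS]; exact hl)
    have e : T w = T z := eq_of_subset_of_card_le (hc w hw) (by rw [hT, hT])
    have := prim_equiv hG (fun u u' => T u = T u') ⟨fun _ => rfl, Eq.symm, Eq.trans⟩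
      (fun h u u' e => by
        ext v
        rw [← smul_inv_smul h v, mT, mT, big_smul_iff, big_smul_iff, ← mT, ← mT, e])
      (mem_erase.1 hw).1 e x z
    have h1 : x ∈ T x := (mT x x).2 (hnot x)
    rw [this, mT] at h1
    exact h1 (mem_big.2 ⟨1, one_smul _ _, one_smul _ _⟩)
  have hvb : v ∈ big G z x z := by rwa [mT, not_not] at hv'
  have hsub : big G z x z ⊆ ((T z).erase z).biUnion fun w => (T w).erase w := fun v' hv'' => by
    obtain ⟨h, h1, h2⟩ := (Same.symm (mem_big.1 hvb)).trans (mem_big.1 hv'')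
    refine mem_biUnion.2 ⟨h • w, mem_erase.2 ⟨fun e => (mem_erase.1 hw).1
      (MulAction.injective h (e.trans h1.symm)), ?_⟩, mem_erase.2 ⟨fun e => ?_, ?_⟩⟩
    · refine (mT _ _).2 fun e => (mT _ _).1 (mem_erase.1 hw).2 ((big_smul_iff h).1 ?_)
      rwa [h1]
    · rw [← h2] at e
      exact hv' (MulAction.injective h e ▸ (mem_erase.1 hw).2)
    · rw [mT, ← h2, big_smul_iff, ← mT]; exact hv
  have := (card_le_card hsub).trans (card_biUnion_le_card_mul _ _ l fun w _ => (hS w).le)
  rwa [hS, card_big] at this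

/-- the orbital graph of `(a, g a)` -/
def og (g : G) (a : Ω) (ha : g • a ≠ a) : SimpleGraph Ω where
  Adj x y := (∃ h : G, h • a = x ∧ h • g • a = y) ∨ (∃ h : G, h • a = y ∧ h • g • a = x)
  symm := ⟨fun _ _ h => h.symm⟩
  loopless := ⟨fun _ h => by
    rcases h with ⟨h, h1, h2⟩ | ⟨h, h1, h2⟩ <;> exact ha (MulAction.injective h (h2.trans h1.symm))⟩

theorem og_smul {g : G} {a : Ω} {ha : g • a ≠ a} (h : G) (x y : Ω) (e : (og g a ha).Adj x y) :
    (og g a ha).Adj (h • x) (h • y) := by
  rcases e with ⟨k, rfl, rfl⟩ | ⟨k, rfl, rfl⟩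
  · exact Or.inl ⟨h * k, mul_smul _ _ _, mul_smul _ _ _⟩
  · exact Or.inr ⟨h * k, mul_smul _ _ _, mul_smul _ _ _⟩

theorem og_conn (hG : IsPreprimitive G Ω) {g : G} {a : Ω} (ha : g • a ≠ a) :
    (og g a ha).Connected := by
  have : Nonempty Ω := ⟨a⟩
  refine ⟨fun x y => prim_equiv hG (og g a ha).Reachable (og g a ha).reachable_is_equivalence
    (fun h x y e => ?_) ha.symm (SimpleGraph.Adj.reachable
      (Or.inl ⟨1, one_smul _ _, one_smul _ _⟩)) x y⟩
  let f : og g a ha →g og g a ha := ⟨fun v => h • v, fun a => og_smul h _ _ a⟩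
  exact e.map f

theorem psi_conj (g h : G) (a : Ω) : (psi G (h • a) (h • g • a)).card ≤ (supp Ω g).card := by
  refine card_le_card_of_injOn (fun z => h⁻¹ • z) (fun z hz => ?_) fun _ _ _ _ e =>
    MulAction.injective _ e
  refine mem_coe.2 (mem_supp.2 fun e => mem_psi.1 (mem_coe.1 hz) ⟨h * g * h⁻¹, ?_, ?_⟩)
  · rw [mul_smul, mul_smul, e, smul_inv_smul]
  · rw [mul_smul, mul_smul, inv_smul_smul]

theorem psi_comm (x y : Ω) : psi G x y = psi G y x := by
  ext z; rw [mem_psi, mem_psi]; exact not_congr ⟨Same.symm, Same.symm⟩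

theorem psi_adj {g : G} {a : Ω} {ha : g • a ≠ a} {x y : Ω} (e : (og g a ha).Adj x y) :
    (psi G x y).card ≤ (supp Ω g).card := by
  rcases e with ⟨k, rfl, rfl⟩ | ⟨k, rfl, rfl⟩
  · exact psi_conj g k a
  · rw [psi_comm]; exact psi_conj g k a

theorem psi_walk {g : G} {a : Ω} {ha : g • a ≠ a} {x y : Ω} (p : (og g a ha).Walk x y) :
    (psi G x y).card ≤ p.length * (supp Ω g).card := by
  induction p with
  | nil =>
    rw [card_eq_zero.2 (eq_empty_iff_forall_notMem.2 fun z hz => mem_psi.1 hz (Same.refl z _))]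
    exact Nat.zero_le _
  | @cons u v w e q ih =>
    have h1 := psi_adj e
    have h2 : psi G u w ⊆ psi G u v ∪ psi G v w := fun z hz => by
      rw [mem_union, mem_psi, mem_psi, ← not_and_or]
      exact fun h => mem_psi.1 hz (h.1.trans h.2)
    have := (card_le_card h2).trans (card_union_le _ _)
    rw [SimpleGraph.Walk.length_cons, add_mul]
    omega

theorem main [Finite G] (hG : IsPreprimitive G Ω)
    (hA : ¬ alternatingGroup Ω ≤ (toPermHom G Ω).range) {g : G} {a : Ω} (ha : g • a ≠ a) :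
    Fintype.card Ω ≤ 4 * ((supp Ω g).card * (supp Ω g).card) + 1 := by
  classical
  set m := (supp Ω g).card with hm
  set n := Fintype.card Ω with hn
  have : Nontrivial Ω := ⟨⟨_, _, ha⟩⟩
  have h2 : 2 ≤ n := Fintype.one_lt_card
  let X := og g a ha
  have hX : X.Connected := og_conn hG ha
  have hd := dist_smul (G := G) hX og_smul
  have hk : X.IsRegularOfDegree (X.degree a) := fun v => by
    obtain ⟨h, rfl⟩ := exists_smul_eq G a v
    rw [← SimpleGraph.card_neighborFinset_eq_degree, ← SimpleGraph.card_neighborFinset_eq_degree]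
    refine (card_bij (fun v _ => h • v) (fun v hv => ?_) (fun _ _ _ _ e => MulAction.injective h e)
      fun v hv => ⟨h⁻¹ • v, ?_, smul_inv_smul h v⟩).symm
    · rw [SimpleGraph.mem_neighborFinset] at hv ⊢; exact og_smul h _ _ hv
    · rw [SimpleGraph.mem_neighborFinset] at hv ⊢
      simpa using og_smul h⁻¹ _ _ hv
  set k := X.degree a
  have hpsi : ∀ x y, (psi G x y).card ≤ X.dist x y * m := fun x y => by
    obtain ⟨p, hp⟩ := hX.exists_walk_length_eq_dist x y
    exact hp ▸ psi_walk p
  -- edges between layers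
  have hA1 : 2 * (n - 1) ≤ k * m := by
    let E := (univ : Finset (Ω × Ω)).filter fun p => X.Adj p.1 p.2
    have e1 : E.card = n * k := by
      rw [card_eq_sum_card_fiberwise (f := Prod.fst) (t := univ) fun _ _ => mem_univ _,
        sum_congr rfl (g := fun _ => k), sum_const, card_univ, smul_eq_mul]
      intro v _
      rw [← hk.degree_eq v, ← SimpleGraph.card_neighborFinset_eq_degree]
      refine card_bij (fun p _ => p.2) (fun p hp => ?_) (fun p hp q hq e => ?_)
        fun y hy => ⟨(v, y), by simpa [E] using hy, rfl⟩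
      · simp only [E, mem_filter, mem_univ, true_and] at hp
        rw [SimpleGraph.mem_neighborFinset, ← hp.2]; exact hp.1
      · exact Prod.ext ((mem_filter.1 hp).2.trans (mem_filter.1 hq).2.symm) e
    have e2 := sum_card_bipartiteAbove_eq_sum_card_bipartiteBelow (s := (univ : Finset Ω)) (t := E)
      fun z p => ¬ Same G z p.1 p.2
    have e3 : n * (2 * (n - 1)) ≤ ∑ z : Ω, (E.bipartiteAbove (fun z p => ¬ Same G z p.1 p.2) z).card := by
      have := card_nsmul_le_sum univ
        (fun z => (E.bipartiteAbove (fun z p => ¬ Same G z p.1 p.2) z).card) (2 * (n - 1))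
        fun z _ => (layer_edges hX z).trans (card_le_card fun p hp => by
          obtain ⟨-, h1, h2⟩ := mem_filter.1 hp
          refine mem_filter.2 ⟨mem_filter.2 ⟨mem_univ _, h1⟩, fun ⟨h, e1, e2⟩ => h2 ?_⟩
          rw [← hd h, e1, e2])
      rwa [card_univ, smul_eq_mul] at this
    have e4 := sum_le_card_nsmul E
      (fun p => (univ.bipartiteBelow (fun (z : Ω) (p : Ω × Ω) => ¬ Same G z p.1 p.2) p).card) m
      fun p hp => le_trans (card_le_card fun z hz => mem_psi.2 (mem_filter.1 hz).2)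
        (psi_adj (mem_filter.1 hp).2)
    rw [e1, smul_eq_mul, ← e2, mul_assoc] at e4
    exact Nat.le_of_mul_le_mul_left (e3.trans e4) (by omega)
  obtain ⟨⟨z, x⟩, -, hK⟩ := exists_max_image (univ : Finset (Ω × Ω))
    (fun p => (orb G p.1 p.2).card) univ_nonempty
  replace hK : ∀ z' x' : Ω, (orb G z' x').card ≤ (orb G z x).card :=
    fun z' x' => hK (z', x') (mem_univ _)
  set K := (orb G z x).card with hKd
  obtain ⟨r, hr⟩ : ∃ r, n = r + 1 := ⟨n - 1, by omega⟩
  rw [hr, Nat.add_sub_cancel] at hA1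
  by_cases c1 : 2 * K ≤ n
  · obtain ⟨⟨u, v⟩, -, hD⟩ := exists_max_image (univ : Finset (Ω × Ω))
      (fun p => X.dist p.1 p.2) univ_nonempty
    set δ := X.dist u v
    have b1 := exists_psi h2 hK fun x y =>
      (hpsi x y).trans (Nat.mul_le_mul_right m (hD (x, y) (mem_univ _)))
    have b2 := (ball_growth hX hk u (δ / 3) v (by omega)).trans (card_le_univ _)
    have b3 : δ * (k + 1) ≤ δ * (6 * m) := by
      have : δ * (k + 1) ≤ 3 * ((δ / 3 + 1) * (k + 1)) := by
        rw [← mul_assoc]; exact Nat.mul_le_mul_right _ (by omega)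
      linarith
    have b4 := Nat.le_of_mul_le_mul_left b3 (Nat.pos_of_ne_zero fun e => by
      simp only [e] at b1; omega)
    nlinarith
  have hxz : x ≠ z := by
    rintro rfl
    have : K ≤ 1 := card_le_one.2 fun a ha b hb => by
      obtain ⟨h, h1, h2⟩ := mem_orb.1 ha
      obtain ⟨h', h1', h2'⟩ := mem_orb.1 hb
      rw [← h2, ← h2', h1, h1']
    omega
  set t := X.dist z x with ht
  have hbig : ∀ u v, v ∈ big G z x u → X.dist u v = t := fun u v hv => by
    obtain ⟨h, rfl, rfl⟩ := mem_big.1 hv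
    exact hd h z x
  have hdist : ∀ u v, X.dist u v ≤ 2 * t := fun u v => by
    have h1 := card_union_add_card_inter (big G z x u) (big G z x v)
    have h3 := card_le_univ (big G z x u ∪ big G z x v)
    rw [card_big, card_big] at h1
    obtain ⟨w, hw⟩ := card_pos.1 (show 0 < (big G z x u ∩ big G z x v).card by omega)
    have := hX.dist_triangle (u := u) (v := w) (w := v)
    rw [hbig u w (mem_inter.1 hw).1, SimpleGraph.dist_comm (u := w),
      hbig v w (mem_inter.1 hw).2] at this
    omega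
  have b1 := exists_psi h2 hK fun x y => (hpsi x y).trans (Nat.mul_le_mul_right m (hdist x y))
  have ht0 : 0 < t := hX.pos_dist_of_ne hxz.symm
  by_cases c2 : t = 1
  · have hsub : orb G z x ⊆ univ.erase z := fun y hy => mem_erase.2 ⟨fun e => by
      obtain ⟨h, h1, h2⟩ := mem_orb.1 hy
      exact hxz (MulAction.injective h (h2.trans (e.trans h1.symm))), mem_univ _⟩
    have hc : (univ.erase z).card = r := by rw [card_erase_of_mem (mem_univ z), card_univ]; omega
    have hle := card_le_card hsub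
    by_cases c3 : K = r
    · have e : orb G z x = univ.erase z := eq_of_subset_of_card_le hsub (by omega)
      have := two_trans hG hA ha fun x' y' hx' hy' => by
        obtain ⟨h, rfl⟩ := exists_smul_eq G z a
        have q : ∀ w, w ≠ h • z → Same G z x (h⁻¹ • w) := fun w hw => mem_orb.1
          (e ▸ mem_erase.2 ⟨fun e' => hw (inv_smul_eq_iff.1 e'), mem_univ _⟩)
        obtain ⟨f, f1, f2⟩ := (q x' hx').symm.trans (q y' hy')
        exact ⟨h * f * h⁻¹, by rw [mul_smul, mul_smul, inv_smul_smul, f1],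
          by rw [mul_smul, mul_smul, f2, smul_inv_smul]⟩
      rw [← hn, ← hm] at this
      omega
    · obtain ⟨l, hl⟩ : ∃ l, r = l + K := ⟨r - K, by omega⟩
      have := rest_bound hG hxz (l := l) (by omega) (by omega)
      rw [c2] at b1
      have b2 : l + 2 ≤ 2 * m := by omega
      have := Nat.mul_le_mul b2 b2
      nlinarith
  · have b2 := ball_growth hX hk z ((t - 2) / 3) x (by omega)
    have b3 := card_le_univ (ball X z (3 * ((t - 2) / 3) + 1) ∪ big G z x z)
    rw [card_union_of_disjoint (disjoint_left.2 fun w h1 h2 => by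
      have := (mem_filter.1 h1).2
      have := hbig z w h2
      omega), card_big] at b3
    have b4 : t * (k + 1) ≤ t * (8 * m) := by
      have : t * (k + 1) ≤ 4 * (((t - 2) / 3 + 1) * (k + 1)) := by
        rw [← mul_assoc]; exact Nat.mul_le_mul_right _ (by omega)
      linarith
    have b5 := Nat.le_of_mul_le_mul_left b4 ht0
    nlinarith

end Cfsg.Agent.H18.Babai
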